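import Cfsg.Agent.L33A.Kit
import Cfsg.Agent.Solv.PGroupNormal
import Cfsg.Agent.Solv.Conj

/-! # Normal subgroups of the centraliser of `A` -/

set_option autoImplicit false

namespace Cfsg.Lib.L33A

open Subgroup Cfsg.Lib.L33E Cfsg.Lib.Gold
open scoped commutatorElement

universe u
variable {G : Type u} [Group G] [Finite G] {r i1 j1 i2 j2 σ a b : G}

omit [Finite G] in
theorem B1.cs {g : G} (h1 : g⁻¹ * a * g = a) (h2 : g⁻¹ * b * g = b) : g ∈ Cs (gen [a, b]) :=
  mem_centralizer_iff.2 fun x hx => Xs.comm_gen (xs := [a, b]) (by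
    simp only [List.mem_cons, List.not_mem_nil, or_false, forall_eq_or_imp, forall_eq]
    exact ⟨by rw [Commute, SemiconjBy, ← inv_mul_eq_iff_eq_mul, ← mul_assoc, h1],
      by rw [Commute, SemiconjBy, ← inv_mul_eq_iff_eq_mul, ← mul_assoc, h2]⟩) hx

omit [Finite G] in
theorem B1.RC (h : Bar r i1 j1 i2 j2 σ a b) : gen [r, i1, j1, i2, j2, σ] ≤ Cs (gen [a, b]) :=
  fun x hx => mem_centralizer_iff.2 fun y hy => (h.cR x hx y hy).symm

theorem B1.le (h : Bar r i1 j1 i2 j2 σ a b) {D : Subgroup G} (n : Cs (gen [a, b]) ≤ Ns D)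
    (hr : r ∈ D) : gen [r, i1, j1, i2, j2, σ] ≤ D := by
  have k : ∀ c ∈ Cs (gen [a, b]), ∀ d ∈ D, c⁻¹ * d * c ∈ D := fun c hc d hd => by
    simpa using (mem_normalizer_iff.1 (inv_mem (n hc)) d).1 hd
  obtain ⟨g, e⟩ := h.ef
  obtain ⟨f, e'⟩ := h.rho1
  simp only [Cj, List.forall₂_cons, List.Forall₂.nil, and_true] at e e'
  obtain ⟨f1, f2, f3, -, f5, f6⟩ := e'
  have hσ : σ ∈ D := e.1 ▸ k g (B1.cs e.2.1 e.2.2) r hr
  have hf := k f (B1.cs f5 f6)
  have a1 : i1 * σ = σ * i2 := by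
    have := mulR h.sat 32 8 34
    simpa [evL] using this.symm
  have a2 : i1 * j1 = j1 * (r * i1) := by
    have := mulR h.sat 4 3 6
    simpa [evL] using this.symm
  have a3 : σ * j1 = j2 * σ := by simpa [evL] using mulR h.sat 32 4 48
  have d1 : i2⁻¹ * i1 ∈ D := by
    have := mul_mem (inv_mem hσ) (k i1 (B1.RC h (subset_closure (by simp))) σ hσ)
    rwa [show σ⁻¹ * (i1⁻¹ * σ * i1) = (i1 * σ)⁻¹ * σ * i1 by group, a1, mul_inv_rev,
      inv_mul_cancel_right] at this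
  have d2 : i1⁻¹ * j1 ∈ D := by
    have := mul_mem (inv_mem d1) (hf _ d1)
    rwa [show f⁻¹ * (i2⁻¹ * i1) * f = (f⁻¹ * i2 * f)⁻¹ * (f⁻¹ * i1 * f) by group, f1, f3, mul_inv_rev,
      inv_inv, mul_assoc, mul_inv_cancel_left] at this
  have d3 : i1 ∈ D := by
    have := hf _ d2
    rwa [show f⁻¹ * (i1⁻¹ * j1) * f = (f⁻¹ * i1 * f)⁻¹ * (f⁻¹ * j1 * f) by group, f1, f2, a2,
      inv_mul_cancel_left, mul_mem_cancel_left hr] at this
  have d4 : j1 ∈ D := (mul_mem_cancel_left (inv_mem d3)).1 d2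
  refine (closure_le _).2 fun x hx => ?_
  simp only [List.mem_cons, List.not_mem_nil, or_false, Set.mem_ofPred_eq] at hx
  rcases hx with rfl | rfl | rfl | rfl | rfl | rfl
  exacts [hr, d3, d4, inv_mem_iff.1 ((mul_mem_cancel_right d3).1 d1),
    (mul_mem_cancel_right hσ).1 (a3 ▸ mul_mem hσ d4), hσ]

theorem B1.mem (h : Bar r i1 j1 i2 j2 σ a b) {D : Subgroup G}
    (n : gen [r, i1, j1, i2, j2, σ] ≤ Ns D) (hr : D ⊓ gen [r, i1, j1, i2, j2, σ] ≠ ⊥) : r ∈ D := by
  have := normal_subgroupOf_of_le_normalizer n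
  obtain ⟨z, h1, h2, h3⟩ := Solv.PG.exists_mem_center_orderOf_eq
    (IsPGroup.of_card (p := 2) (n := 6) (cardR h.sat)) (D.subgroupOf _)
    fun e => hr (subgroupOf_eq_bot.1 e).eq_bot
  rcases zR h.sat z.2 (fun x hx => (congrArg Subtype.val (mem_center_iff.1 h2 ⟨x, hx⟩)).symm) with e | e
  · rw [show z = 1 from Subtype.ext e, orderOf_one] at h3
    exact absurd h3 (by decide)
  · exact e ▸ h1

theorem B1.tr (h : Bar r i1 j1 i2 j2 σ a b) :
    ⁅Cs (gen [a, b]), Cs (gen [a, b])⁆ ⊓ gen [a, b] = ⊥ := by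
  obtain ⟨T, hT⟩ := h.syl
  have hA : gen [a, b] ≤ Cs (gen [a, b]) := (closure_le _).2 fun x hx => by
    simp only [List.mem_cons, List.not_mem_nil, or_false, Set.mem_ofPred_eq] at hx
    rcases hx with rfl | rfl
    exacts [B1.cs (by simp) (by rw [mul_assoc, ← h.cab.eq, inv_mul_cancel_left]),
      B1.cs (by rw [mul_assoc, h.cab.eq, inv_mul_cancel_left]) (by simp)]
  have sq : ∀ z ∈ gen [a, b], z * z = 1 := fun z hz => by
    induction hz using closure_induction with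
    | mem x hx =>
      simp only [List.mem_cons, List.not_mem_nil, or_false, Set.mem_ofPred_eq] at hx
      rcases hx with rfl | rfl
      exacts [h.a2, h.b2]
    | one => simp
    | mul x y hx hy h1 h2 =>
      rw [(show Commute y x from mem_centralizer_iff.1 (hA hx) y hy).mul_mul_mul_comm, h1, h2, one_mul]
    | inv x _ h1 => rw [← mul_inv_rev, h1, inv_one]
  have hle : (T : Subgroup G) ≤ Cs (gen [a, b]) := hT ▸ sup_le (B1.RC h) hA
  refine eq_bot_iff.2 fun z ⟨h1, h2⟩ => h.disj.le ⟨?_, h2⟩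
  rw [← map_subtype_commutator] at h1
  obtain ⟨z, h1, rfl⟩ := h1
  let H := (T : Subgroup G).subgroupOf (Cs (gen [a, b]))
  have e := Abelianization.commutator_subset_ker (MonoidHom.transfer (Abelianization.of (G := H))) h1
  rw [MonoidHom.mem_ker, MonoidHom.transfer_eq_pow _ _ fun k g _ => by
    rw [mul_assoc, show z ^ k * g = g * z ^ k from Subtype.ext (mem_centralizer_iff.1 g.2 _ (pow_mem h2 k)),
      inv_mul_cancel_left], ← MonoidHom.mem_ker, Abelianization.ker_of] at e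
  have k : commutator H ≤ (gen [r, i1, j1, i2, j2, σ]).comap ((Cs (gen [a, b])).subtype.comp H.subtype) :=
    commutator_le.2 fun x _ y _ => by
      have n : gen [a, b] ≤ Ns (gen [r, i1, j1, i2, j2, σ]) :=
        (le_centralizer_iff.1 (B1.RC h)).trans (centralizer_le_normalizer _)
      obtain ⟨x1, a1, x2, a2, ex⟩ := (Solv.mem_sup_of_le_normalizer n).1 (hT.le x.2)
      obtain ⟨y1, b1, y2, b2, ey⟩ := (Solv.mem_sup_of_le_normalizer n).1 (hT.le y.2)
      have c1 : Commute x2 (y1 * y2) := (h.cR y1 b1 x2 a2).symm.mul_right (mem_centralizer_iff.1 (hA b2) x2 a2)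
      rw [mem_comap, map_commutatorElement, show ((Cs _).subtype.comp H.subtype) x = _ from ex.symm,
        show ((Cs _).subtype.comp H.subtype) y = _ from ey.symm, commutatorElement_def, mul_inv_rev x1,
        mul_assoc x1, c1.eq, mul_assoc x1, ← mul_assoc _ x2⁻¹, mul_inv_cancel_right, mul_inv_rev,
        mul_assoc y1, ← (h.cR x1 a1 y2 b2).inv_left.eq]
      simpa [mul_assoc] using mul_mem a1 (mul_mem b1 (mul_mem (inv_mem a1) (inv_mem b1)))
  obtain ⟨m, hm⟩ : Odd H.index := Nat.not_even_iff_odd.1 fun c =>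
    T.not_dvd_index (c.two_dvd.trans (relIndex_dvd_index_of_le hle))
  have : (z : G) ^ H.index ∈ gen [r, i1, j1, i2, j2, σ] := k e
  rwa [hm, pow_succ, pow_mul, pow_two, sq z.1 h2, one_pow, one_mul] at this

end Cfsg.Lib.L33A
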