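import Cfsg.Agent.L33A.Defs
import Cfsg.Agent.L33E.IdS
import Cfsg.Agent.Fus.Sp4Type

/-! # A Sylow 2-subgroup of `PSp₄(3)` -/

set_option autoImplicit false

namespace Cfsg.Lib.L33A

open Subgroup Cfsg.Lib.L33E Cfsg.Lib.Fus.Grp Cfsg.Lib.Known.GL2

theorem B4.step {A B : Type*} [Group A] [Group B] {f : A →* B} {z : A}
    (hf : ∀ p q, f p = f q ↔ p = q ∨ p = q * z) {D : Tw} {ls : List A} (h : Sat D (ls.map f))
    (g : A) (β : List ℕ) (sq : ℕ)
    (a : List.Forall₂ (fun x b => g * x = evL ls b * g ∨ g * x = evL ls b * g * z) ls β)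
    (b : g * g = evL ls sq ∨ g * g = evL ls sq * z)
    (n : ∀ m < 2 ^ ls.length, g ≠ evL ls m ∧ g ≠ evL ls m * z) :
    Sat (D ++ [(β, sq)]) ((ls ++ [g]).map f) := by
  rw [List.map_append]
  refine h.snoc (List.forall₂_map_left_iff.2 (a.imp fun x c k => ?_)) ?_ fun m k => ?_
  · rw [← Id.map_evL, mul_inv_eq_iff_eq_mul, ← map_mul, ← map_mul]
    exact (hf _ _).2 k
  · rw [← Id.map_evL, ← map_mul]
    exact (hf _ _).2 b
  · rw [← Id.map_evL, ← evL_mod] at k
    have := n _ (Nat.mod_lt m (by positivity))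
    exact ((hf _ _).1 k).elim this.1 this.2

theorem B4.card : Nat.card (Cfsg.PSp 2 (ZMod 3)) = 25920 := by
  have h1 := card_eq_card_quotient_mul_card_subgroup (center (Sp4M (ZMod 3)))
  have h2 : Nat.card (center (Sp4M (ZMod 3))) = 2 := by
    exact (congrArg Set.ncard (Set.ext fun g => mem_center_sp4)).trans
      (Set.ncard_pair (a := (1 : Sp4M (ZMod 3))) (b := spPair (ZMod 3) (-1, -1)) fun e =>
        absurd (spPair_injective ((map_one _).trans e)) (by decide))
  rw [h2, Class.card_symplecticGroup, ZMod.card, show Class.spOrd 3 2 = 51840 by decide] at h1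
  change 51840 = Nat.card (Cfsg.PSp 2 (ZMod 3)) * 2 at h1
  omega

/-- the quaternion pair -/
def B4.qi : SL2 (ZMod 3) := ⟨!![0, -1; 1, 0], by rw [Matrix.det_fin_two_of]; decide⟩

/-- the quaternion pair -/
def B4.qj : SL2 (ZMod 3) := ⟨!![1, 1; 1, -1], by rw [Matrix.det_fin_two_of]; decide⟩

theorem B4.model : ∃ (S : Sylow 2 (Cfsg.PSp 2 (ZMod 3))) (l : List (Cfsg.PSp 2 (ZMod 3))),
    Sat DR l ∧ (S : Subgroup _) = gen l := by
  let π := QuotientGroup.mk' (center (Sp4M (ZMod 3)))
  let f := π.comp (spPair (ZMod 3))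
  have hf : ∀ p q, f p = f q ↔ p = q ∨ p = q * (-1, -1) := fun p q => by
    rw [eq_comm, ← inv_mul_eq_one, ← map_inv, ← map_mul]
    refine ((QuotientGroup.eq_one_iff _).trans mem_center_sp4).trans ?_
    rw [← map_one (spPair (ZMod 3)), spPair_injective.eq_iff, spPair_injective.eq_iff,
      inv_mul_eq_one, inv_mul_eq_iff_eq_mul, eq_comm]
  have s1 := B4.step hf (ls := []) .nil (-1, 1) [] 0 (by decide +kernel) (by decide +kernel)
    (by decide +kernel)
  have s2 := B4.step hf s1 (B4.qi, 1) [1] 1 (by decide +kernel) (by decide +kernel)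
    (by decide +kernel)
  have s3 := B4.step hf s2 (B4.qj, 1) [1, 3] 1 (by decide +kernel) (by decide +kernel)
    (by decide +kernel)
  have s4 := B4.step hf s3 (1, B4.qi) [1, 2, 4] 1 (by decide +kernel) (by decide +kernel)
    (by decide +kernel)
  have s5 := B4.step hf s4 (1, B4.qj) [1, 2, 4, 9] 1 (by decide +kernel) (by decide +kernel)
    (by decide +kernel)
  have sw : ∀ p q : SL2 (ZMod 3) × SL2 (ZMod 3), p.swap = q ∨ p.swap = q * (-1, -1) →
      π (spSwap _) * f p * (π (spSwap _))⁻¹ = f q := fun p q e => by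
    rw [← (hf _ _).2 e, mul_inv_eq_iff_eq_mul]
    exact congrArg π (spSwap_mul p.1 p.2)
  let L : List (SL2 (ZMod 3) × SL2 (ZMod 3)) :=
    [(-1, 1), (B4.qi, 1), (B4.qj, 1), (1, B4.qi), (1, B4.qj)]
  have r6 : List.Forall₂ (fun p b => p.swap = evL L b ∨ p.swap = evL L b * (-1, -1)) L
    [1, 8, 16, 2, 4] := by decide +kernel
  have s6 := Sat.snoc (gs := L.map f) s5 (g := π (spSwap _)) (β := [1, 8, 16, 2, 4]) (sq := 0)
    (List.forall₂_map_left_iff.2 (r6.imp fun p b e => by rw [← Id.map_evL]; exact sw _ _ e))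
    (by rw [← map_mul, spSwap_sq, map_one, evL_zero]) fun m e => by
      rw [← Id.map_evL] at e
      generalize evL L m = p at e
      have k : (spPair (ZMod 3) p)⁻¹ * spSwap _ ∈ center _ := QuotientGroup.eq.1 e.symm
      rcases mem_center_sp4.1 k with k | k <;> rw [inv_mul_eq_iff_eq_mul] at k
      · rw [mul_one] at k
        exact one_ne_zero (k4_inj.1 (congrArg Subtype.val k)).2.1
      · rw [← map_mul] at k
        exact one_ne_zero (k4_inj.1 (congrArg Subtype.val k)).2.1
  have c := s6.cardI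
  refine ⟨Sylow.ofCard _ (c.trans ?_), _, s6, rfl⟩
  rw [B4.card, show 25920 = 2 ^ 6 * 405 by norm_num,
    Nat.factorization_mul_apply_of_coprime (by norm_num), Nat.prime_two.factorization_pow,
    Nat.factorization_eq_zero_of_not_dvd (by norm_num)]
  simp [L]

end Cfsg.Lib.L33A
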