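import Cfsg.Agent.L33A.Defs
import Cfsg.Agent.L33E.Mod

set_option autoImplicit false
set_option maxRecDepth 100000
set_option linter.all false
set_option Elab.async false

namespace Cfsg.Lib.L33A

open Cfsg.Lib.L33E

noncomputable def MR : Md := ⟨6, 64, 3, 7,
(.n (.n (.n (.l 0x3f03e03d03c03b03a03903803703603503403303203103002f02e02d02c02b02a02902802702602502402302202102001f01e01d01c01b01a01901801701601501401301201101000f00e00d00c00b00a009008007006005004003002001000) (.l 0x2e02f02c02d02a02b02802902602702402502202302002103f03e03d03c03b03a03903803703603503403303203103001a01b01801901f01e01d01c01201301001101701601501400a00b00800900f00e00d00c002003000001007006005004)) (.n (.l 0x3703603503403303203103003e03f03c03d03a03b03803902602702402502202302002102f02e02d02c02b02a02902801d01c01e01f01801901b01a01501401601701001101301200d00c00e00f00800900b00a005004006007000001003002) (.l 0x2602702402502202302002102f02e02d02c02b02a02902803603703403503203303003103f03e03d03c03b03a03903801801901b01a01c01d01f01e01001101301201401501701600800900b00a00c00d00f00e000001003002004005007006))) (.n (.n (.l 0x3e03f03c03d03a03b03803903603703403503203303003102e02f02c02d02a02b02802902602702402502202302002101e01f01c01d01a01b01801901601701401501201301001100e00f00c00d00a00b008009006007004005002003000001)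 (.l 0x2f02e02d02c02b02a02902802702602502402302202102003e03f03c03d03a03b03803903603703403503203303003101b01a01901801e01f01c01d01301201101001601701401500b00a00900800e00f00c00d003002001000006007004005)) (.n (.l 0x3603703403503203303003103f03e03d03c03b03a03903802702602502402302202102002e02f02c02d02a02b02802901c01d01f01e01901801a01b01401501701601101001201300c00d00f00e00900800a00b004005007006001000002003) (.l 0x2702602502402302202102002e02f02c02d02a02b02802903703603503403303203103003e03f03c03d03a03b03803901901801a01b01d01c01e01f01101001201301501401601700900800a00b00d00c00e00f001000002003005004006007)))),
(.n (.n (.n (.l 0x3f03e03d03c03b03a03903803703603503403303203103002f02e02d02c02b02a02902802702602502402302202102001f01e01d01c01b01a01901801701601501401301201101000f00e00d00c00b00a009008007006005004003002001000) (.l 0x1f01e01d01c01b01a01901801701601501401301201101000f00e00d00c00b00a00900800700600500400300200100003f03e03d03c03b03a03903803703603503403303203103002f02e02d02c02b02a029028027026025024023022021020)) (.n (.l 0x3a03b03803903f03e03d03c03203303003103703603503402a02b02802902f02e02d02c02202302002102702602502400e00f00c00d00a00b00800900600700400500200300000101f01e01d01c01b01a019018017016015014013012011010) (.l 0x1a01b01801901f01e01d01c01201301001101701601501400a00b00800900f00e00d00c00200300000100700600500402e02f02c02d02a02b02802902602702402502202302002103f03e03d03c03b03a039038037036035034033032031030)))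 (.n (.n (.l 0x3d03c03e03f03803903b03a03503403603703003103303202d02c02e02f02802902b02a02502402602702002102302201701601501401301201101001e01f01c01d01a01b01801900600700400500200300000100f00e00d00c00b00a009008) (.l 0x1d01c01e01f01801901b01a01501401601701001101301200d00c00e00f00800900b00a00500400600700000100300203703603503403303203103003e03f03c03d03a03b03803902602702402502202302002102f02e02d02c02b02a029028)) (.n (.l 0x3803903b03a03c03d03f03e03003103303203403503703602802902b02a02c02d02f02e02002102302202402502702600600700400500200300000100f00e00d00c00b00a00900801601701401501201301001101f01e01d01c01b01a019018) (.l 0x1801901b01a01c01d01f01e01001101301201401501701600800900b00a00c00d00f00e00000100300200400500700602602702402502202302002102f02e02d02c02b02a02902803603703403503203303003103f03e03d03c03b03a039038)))),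
0x3f03e03703602f02e02602703d03c03503402d02c02402503b03a03303202b02a02202303803903003102802902102001f01e01d01c01b01a01801901701601501401301201001100f00e00d00c00b00a008009006007004005002003001000,
0,
0⟩
theorem MR_ok : chkMd MR DR = true := by decide +kernel

end Cfsg.Lib.L33A
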