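import Cfsg.Agent.L33A.MP
import Cfsg.Agent.L33A.MT
import Cfsg.Agent.L33A.MR
import Cfsg.Agent.L33E.IdS
import Cfsg.Agent.L33E.BasC
import Cfsg.Agent.L33E.Xs

/-! # Charts for the three towers -/

set_option autoImplicit false

namespace Cfsg.Lib.L33A

open Subgroup Cfsg.Lib.L33E

variable {G : Type*} [Group G] {gs : List G}

theorem chP (h : Sat DP6 gs) : Ch MP gs := ch_of MP_ok h
theorem chT (h : Sat DT gs) : Ch MT gs := ch_of MT_ok h
theorem chR (h : Sat DR gs) : Ch MR gs := ch_of MR_ok h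

/-- products on demand: `simpa [evL] using mulP h 4 4 1` gives `i1 * i1 = r1` -/
theorem mulP (h : Sat DP6 gs) (x y z : ℕ)
    (e : (Nat.blt x 1024 && Nat.blt y 1024 && Nat.beq (MP.mul x y) z) = true := by decide +kernel) :
    evL gs x * evL gs y = evL gs z := by
  simp only [Bool.and_eq_true, Nat.blt_eq, Nat.beq_eq] at e
  rw [← e.2, (chP h).mul _ _ e.1.1 e.1.2]

theorem mulT (h : Sat DT gs) (x y z : ℕ)
    (e : (Nat.blt x 512 && Nat.blt y 512 && Nat.beq (MT.mul x y) z) = true := by decide +kernel) :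
    evL gs x * evL gs y = evL gs z := by
  simp only [Bool.and_eq_true, Nat.blt_eq, Nat.beq_eq] at e
  rw [← e.2, (chT h).mul _ _ e.1.1 e.1.2]

theorem mulR (h : Sat DR gs) (x y z : ℕ)
    (e : (Nat.blt x 64 && Nat.blt y 64 && Nat.beq (MR.mul x y) z) = true := by decide +kernel) :
    evL gs x * evL gs y = evL gs z := by
  simp only [Bool.and_eq_true, Nat.blt_eq, Nat.beq_eq] at e
  rw [← e.2, (chR h).mul _ _ e.1.1 e.1.2]

/-- distinct codes give distinct elements -/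
theorem neC {D : Tw} (h : Sat D gs) (x y : ℕ)
    (e : x < 2 ^ gs.length ∧ y < 2 ^ gs.length ∧ x ≠ y := by simp) : evL gs x ≠ evL gs y :=
  fun k => e.2.2 (h.injI x e.1 y e.2.1 k)

theorem satT {g : G} (h : Sat DP6 (gs ++ [g])) : Sat DT gs := by
  obtain ⟨ks, g', e, h', -⟩ := Sat.snoc_invI (D := DT) (β := [1, 2, 8, 4, 32, 16, 128, 64, 256])
    (sq := 0) h
  rwa [(List.append_inj' e rfl).1]

/-- a statement about all elements of a chart follows from a Boolean test on codes -/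
theorem allC {M : Md} (C : Ch M gs) {p : ℕ → Bool} (h : allN p M.N = true) {y : G}
    (hy : y ∈ gen gs) : ∃ x < M.N, evL gs x = y ∧ p x = true := by
  obtain ⟨x, hx, rfl⟩ := C.mem_iff.1 hy
  exact ⟨x, hx, rfl, allN_iff.1 h x hx⟩

variable {r i1 j1 i2 j2 σ : G}

/-- the centre of `R` -/
theorem zR (h : Sat DR [r, i1, j1, i2, j2, σ]) {y : G} (hy : y ∈ gen [r, i1, j1, i2, j2, σ])
    (c : ∀ x ∈ gen [r, i1, j1, i2, j2, σ], Commute y x) : y = 1 ∨ y = r := by
  have C := chR h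
  obtain ⟨x, hx, rfl, p⟩ := allC C (p := fun x => Nat.beq x 0 || Nat.beq x 1 ||
    !allN (fun w => MR.cm x w) 64) (by decide +kernel) hy
  simp only [Bool.or_eq_true, Nat.beq_eq, Bool.not_eq_true'] at p
  rcases p with (rfl | rfl) | p
  · left; simp [evL]
  · right; simp [evL]
  · have q : allN (fun w => MR.cm x w) 64 = true :=
      allN_iff.2 fun w hw => (C.cm_iff hx hw).2 (c _ (evL_mem _ _))
    rw [q] at p
    exact absurd p (by simp)

/-- the centre of a quaternion subgroup of `R` -/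
theorem q8R (h : Sat DR [r, i1, j1, i2, j2, σ]) {u v : G} (hu : u ∈ gen [r, i1, j1, i2, j2, σ])
    (hv : v ∈ gen [r, i1, j1, i2, j2, σ]) (e : u * u = v * v) (n : u * u ≠ 1)
    (c : u * v * u = v) : u * u = r := by
  have C := chR h
  obtain ⟨x, hx, rfl, p⟩ := allC C (p := fun x => allN (fun w =>
    !Nat.beq (MR.mul x x) (MR.mul w w) || Nat.beq (MR.mul x x) 0 || Nat.beq (MR.mul x x) 1 ||
    !Nat.beq (MR.mul (MR.mul x w) x) w) 64) (by decide +kernel) hu
  obtain ⟨w, hw, rfl⟩ := C.mem_iff.1 hv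
  have p := allN_iff.1 p w hw
  have xx := C.lt _ _ hx hx
  rw [(C.beq_iff xx (C.lt _ _ hw hw)).2 (by rw [C.mul _ _ hx hx, C.mul _ _ hw hw, e]),
    (C.beq_iff (C.lt _ _ (C.lt _ _ hx hw) hx) hw).2
      (by rw [C.mul _ _ (C.lt _ _ hx hw) hx, C.mul _ _ hx hw, c])] at p
  simp only [Bool.not_true, Bool.false_or, Bool.or_false, Bool.or_eq_true, Nat.beq_eq] at p
  rw [← C.mul _ _ hx hx] at n ⊢
  rcases p with p | p
  · rw [p] at n; exact absurd (by simp [evL]) n
  · rw [p]; simp [evL]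

theorem cardR (h : Sat DR [r, i1, j1, i2, j2, σ]) : Nat.card (gen [r, i1, j1, i2, j2, σ]) = 64 :=
  h.cardI

example {r1 r3 i1 j1 i2 j2 i3 j3 σ δ : G} (h : Sat DP6 [r1, r3, i1, j1, i2, j2, i3, j3, σ, δ]) :
    i2 * i2 = r1 * r3 ∧ r1 ≠ 1 ∧ δ * i1 = j1 * δ :=
  ⟨by simpa [evL] using mulP h 16 16 3, by simpa [evL] using neC h 1 0,
   by simpa [evL] using mulP h 512 4 520⟩

end Cfsg.Lib.L33A
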