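import Cfsg.Agent.L33A.Defs
import Cfsg.Agent.L33A.Kit
import Cfsg.Agent.Trans.SylowIn

/-! # `A₈` is not contained in the perfect normal subgroup -/

set_option autoImplicit false

namespace Cfsg.Lib.L33A

open Subgroup Cfsg.Lib.L33E Cfsg.Lib.Gold

universe u
variable {G : Type u} [Group G] [Finite G] {r i1 j1 i2 j2 σ a b : G} {P : Subgroup G}

theorem B5.into (h : Bar r i1 j1 i2 j2 σ a b) (p : PP P r i1 j1 i2 j2 σ a b) {U : Subgroup G}
    (hU : IsPGroup 2 U) (hP : U ≤ P) : ∃ g, ∀ y ∈ U, g * y * g⁻¹ ∈ gen [r, i1, j1, i2, j2, σ] := by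
  obtain ⟨T, hT⟩ := h.syl
  obtain ⟨g, -, hg⟩ := (Trans.isSylowIn_top T).exists_cj_le hU le_top
  exact ⟨g, fun y hy => p.inf.le ⟨p.nrm.conj_mem _ (hP hy) g, hT.le (Trans.cj_le_iff.1 hg y hy)⟩⟩

theorem B5.zp {u : G} (e : u ^ 2 ^ 2 = 1) : IsPGroup 2 (zpowers u) := by
  rintro ⟨_, n, rfl⟩
  exact ⟨2, Subtype.ext (show (u ^ n) ^ 2 ^ 2 = 1 by
    rw [← zpow_natCast, ← zpow_mul, mul_comm, zpow_mul, zpow_natCast, e, one_zpow])⟩

theorem B5.q8 (h : Bar r i1 j1 i2 j2 σ a b) (p : PP P r i1 j1 i2 j2 σ a b) {u v : G} (hu : u ∈ P)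
    (hv : v ∈ P) (e : u * u = v * v) (n : u * u ≠ 1) (c : u * v * u = v) : IsConj r (u * u) := by
  have c1 : v * u * v⁻¹ = u⁻¹ := by rw [mul_inv_eq_iff_eq_mul, eq_inv_mul_iff_mul_eq, ← mul_assoc, c]
  have c2 : u * u * (u * u) = 1 := by
    have : v * (u * u) * v⁻¹ = u * u := by rw [e]; group
    rw [← conj_mul, c1] at this
    nth_rewrite 1 [← this]
    group
  have c3 : u ^ 2 ^ 2 = 1 := by
    rw [← c2]; show u ^ 4 = _; simp only [pow_succ, pow_zero, one_mul, mul_assoc]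
  have c4 : v ^ 2 ^ 2 = 1 := by
    rw [← c2, e]; show v ^ 4 = _; simp only [pow_succ, pow_zero, one_mul, mul_assoc]
  obtain ⟨g, hg⟩ := B5.into h p ((B5.zp c4).to_sup_of_normal_right' (B5.zp c3)
    (zpowers_le.2 (Trans.mem_normalizer_of_cj_le (by rw [Trans.cj_zpowers, c1, zpowers_inv]))))
    (sup_le (zpowers_le.2 hv) (zpowers_le.2 hu))
  have := q8R h.sat (hg u (mem_sup_right (mem_zpowers u))) (hg v (mem_sup_left (mem_zpowers v)))
    (by rw [conj_mul, conj_mul, e]) (by rw [conj_mul]; simpa using n)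
    (by rw [conj_mul, conj_mul, c])
  rw [conj_mul] at this
  exact (isConj_iff.2 ⟨g, this⟩).symm

theorem B5.e8 (h : Bar r i1 j1 i2 j2 σ a b) (p : PP P r i1 j1 i2 j2 σ a b) {F : Subgroup G}
    (hF : F ≤ P) (c : Nat.card F = 8) (k : ∀ y ∈ F, y ≠ 1 → IsConj r y) : False := by
  classical
  obtain ⟨g, hg⟩ := B5.into h p (IsPGroup.of_card (n := 3) c) hF
  let l := [1, r, σ, i1⁻¹ * σ * i1, j1⁻¹ * σ * j1, (i1 * j1)⁻¹ * σ * (i1 * j1)]
  have k' : ∀ y : F, g * y * g⁻¹ ∈ l.toFinset := fun y => List.mem_toFinset.2 (by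
    by_cases e : y.1 = 1
    · rw [e, mul_one, mul_inv_cancel]; exact List.mem_cons_self
    · exact List.mem_cons_of_mem _ (h.cl _ (hg _ y.2) ((k _ y.2 e).trans (isConj_iff.2 ⟨g, rfl⟩))))
  have := Nat.card_le_card_of_injective (fun y : F => (⟨_, k' y⟩ : l.toFinset))
    fun x y e => Subtype.ext (by simpa using e)
  rw [c, Nat.card_eq_fintype_card, Fintype.card_coe] at this
  exact absurd (this.trans (List.toFinset_card_le l)) (by simp [l])

/-- A generator of a regular quaternion group. -/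
def B5.u0 : alternatingGroup (Fin 8) :=
  ⟨⟨![2, 3, 1, 0, 6, 7, 5, 4], ![3, 2, 0, 1, 7, 6, 4, 5], by decide, by decide⟩,
    Equiv.Perm.mem_alternatingGroup.2 (by decide +kernel)⟩

/-- A generator of a regular quaternion group. -/
def B5.v0 : alternatingGroup (Fin 8) :=
  ⟨⟨![4, 5, 7, 6, 1, 0, 2, 3], ![5, 4, 6, 7, 0, 1, 3, 2], by decide, by decide⟩,
    Equiv.Perm.mem_alternatingGroup.2 (by decide +kernel)⟩

/-- A Singer cycle. -/
def B5.s0 : alternatingGroup (Fin 8) :=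
  ⟨⟨![0, 2, 4, 6, 3, 1, 7, 5], ![0, 5, 1, 4, 2, 7, 3, 6], by decide, by decide⟩,
    Equiv.Perm.mem_alternatingGroup.2 (by decide +kernel)⟩

/-- The translations. -/
def B5.th : Multiplicative (ZMod 2 × ZMod 2 × ZMod 2) →* alternatingGroup (Fin 8) :=
  MonoidHom.mk' (fun x => (B5.u0 * B5.u0) ^ x.toAdd.1.val *
    (B5.s0 * (B5.u0 * B5.u0) * B5.s0⁻¹) ^ x.toAdd.2.1.val *
    (B5.s0 * B5.s0 * (B5.u0 * B5.u0) * (B5.s0 * B5.s0)⁻¹) ^ x.toAdd.2.2.val) (by decide +kernel)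

theorem B5.u0_eq_1' : type_of% @B5.u0.eq_1 := @B5.u0.eq_1
theorem B5.v0_eq_1' : type_of% @B5.v0.eq_1 := @B5.v0.eq_1
theorem B5.s0_eq_1' : type_of% @B5.s0.eq_1 := @B5.s0.eq_1
theorem B5.th_eq_1' : type_of% @B5.th.eq_1 := @B5.th.eq_1

theorem B5.rel : B5.u0 * B5.u0 = B5.v0 * B5.v0 ∧ B5.u0 * B5.u0 ≠ 1 ∧ B5.u0 * B5.v0 * B5.u0 = B5.v0 := by
  decide +kernel

theorem B5.th_inj : ∀ x, B5.th x = 1 → x = 1 := by decide +kernel

theorem B5.th_cj : ∀ x, x ≠ 1 → ∃ k : Fin 7,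
    B5.s0 ^ k.val * (B5.u0 * B5.u0) * (B5.s0 ^ k.val)⁻¹ = B5.th x := by decide +kernel

theorem B5.alt (h : Bar r i1 j1 i2 j2 σ a b) (p : PP P r i1 j1 i2 j2 σ a b)
    (f : alternatingGroup (Fin 8) →* P) (hf : Function.Injective f) : False := by
  let φ := P.subtype.comp f
  have hφ : Function.Injective φ := P.subtype_injective.comp hf
  obtain ⟨e1, e2, e3⟩ := B5.rel
  have k := B5.q8 h p (u := φ B5.u0) (v := φ B5.v0) (f _).2 (f _).2
    (by rw [← map_mul, ← map_mul, e1]) (by rw [← map_mul]; exact fun e => e2 ((map_eq_one_iff _ hφ).1 e))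
    (by rw [← map_mul, ← map_mul, e3])
  refine B5.e8 h p (F := (φ.comp B5.th).range) (by rintro _ ⟨x, rfl⟩; exact (f _).2) ?_ ?_
  · rw [← Nat.card_congr (MonoidHom.ofInjective (f := φ.comp B5.th)
      (hφ.comp ((injective_iff_map_eq_one _).2 B5.th_inj))).toEquiv]
    simp
  · rintro _ ⟨x, rfl⟩ hx
    obtain ⟨n, hn⟩ := B5.th_cj x fun e => hx (by rw [e, map_one])
    refine k.trans (isConj_iff.2 ⟨φ (B5.s0 ^ n.val), ?_⟩)
    change _ = φ (B5.th x)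
    rw [← hn, map_mul, map_mul, map_mul, map_inv]

end Cfsg.Lib.L33A
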