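import Cfsg.Agent.L33A.Defs
import Cfsg.Agent.Fus.Sp4Type

/-! # A quaternion subgroup of `PSp₄(q)` whose involution has a non-solvable centraliser -/

set_option autoImplicit false

namespace Cfsg.Lib.L33A

open Subgroup Cfsg.Lib.L33E Cfsg.Lib.Gold Cfsg.Lib.Fus.Grp
open scoped MatrixGroups

theorem B6.sl2 {F : Type} [Field F] [Fintype F] (hF : Odd (Fintype.card F)) (h3 : Fintype.card F ≠ 3) :
    ∃ u v : Cfsg.PSp 2 F, u * u = v * v ∧ u * u ≠ 1 ∧ u * v * u = v ∧
      ¬ Group.IsSolvable ↥(C1 (u * u)) := by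
  classical
  have h2 : (2 : F) ≠ 0 := Ring.two_ne_zero fun h => by
    have := FiniteField.even_card_of_char_two h
    obtain ⟨k, hk⟩ := hF
    omega
  have n1 : (-1 : SL(2, F)) ≠ 1 := fun e => h2 (by
    have := congrFun (congrFun (congrArg Subtype.val e) 0) 0
    simp only [Matrix.SpecialLinearGroup.coe_neg, Matrix.SpecialLinearGroup.coe_one,
      Matrix.neg_apply, Matrix.one_apply_eq] at this
    linear_combination -this)
  let ψ : SL(2, F) →* Cfsg.PSp 2 F :=
    (QuotientGroup.mk' _).comp ((spPair F).comp (MonoidHom.inl _ _))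
  have inj : Function.Injective ψ := (injective_iff_map_eq_one _).2 fun g hg => by
    rcases mem_center_sp4.1 ((QuotientGroup.eq_one_iff _).1 hg) with e | e
    · exact congrArg Prod.fst (spPair_injective (e.trans (map_one _).symm))
    · exact (n1 (congrArg Prod.snd (spPair_injective e)).symm).elim
  obtain ⟨a, b, hab⟩ := FiniteField.exists_root_sum_quadratic
    (f := (Polynomial.X ^ 2 - Polynomial.C (-1) : Polynomial F)) (g := Polynomial.X ^ 2)
    (Polynomial.degree_X_pow_sub_C (by decide) _) (Polynomial.degree_X_pow 2) (Nat.odd_iff.1 hF)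
  simp only [Polynomial.eval_sub, Polynomial.eval_pow, Polynomial.eval_X, Polynomial.eval_C] at hab
  let u : SL(2, F) := ⟨!![0, -1; 1, 0], by simp [Matrix.det_fin_two]⟩
  let v : SL(2, F) := ⟨!![a, b; b, -a], by rw [Matrix.det_fin_two_of]; linear_combination -hab⟩
  have e1 : u * u = -1 := Subtype.ext (show u.1 * u.1 = -1 by
    ext i j; fin_cases i <;> fin_cases j <;> simp [u, Matrix.mul_apply])
  have e2 : v * v = -1 := Subtype.ext (show v.1 * v.1 = -1 by
    ext i j; fin_cases i <;> fin_cases j <;> simp [v, Matrix.mul_apply]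
    · linear_combination hab
    · ring
    · ring
    · linear_combination hab)
  have e3 : u * v * u = v := Subtype.ext (show u.1 * v.1 * u.1 = v.1 by
    ext i j; fin_cases i <;> fin_cases j <;> simp [u, v, Matrix.mul_apply])
  refine ⟨ψ u, ψ v, by rw [← map_mul, ← map_mul, e1, e2], ?_, by rw [← map_mul, ← map_mul, e3], ?_⟩
  · rw [← map_mul, e1]
    exact fun e => n1 (inj (e.trans (map_one ψ).symm))
  rw [← map_mul, e1]
  intro hs
  have : Nontrivial SL(2, F) := ⟨_, _, n1⟩
  have : Group.IsPerfect SL(2, F) := by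
    by_contra h
    have h1 : ∀ a : F, a ∈ ({0, 1, -1} : Finset F) := fun a => by
      by_contra ha
      simp only [Finset.mem_insert, Finset.mem_singleton, not_or] at ha
      exact h ⟨Matrix.SL2.commutator_eq_top ha.1 fun h2 => (sq_eq_one_iff.1 h2).elim ha.2.1 ha.2.2⟩
    have h4 := (Finset.card_le_card (fun a _ => h1 a : Finset.univ ⊆ _)).trans Finset.card_le_three
    have h5 := Fintype.one_lt_card (α := F)
    obtain ⟨k, hk⟩ := hF
    rw [Finset.card_univ] at h4
    omega
  exact Group.IsPerfect.not_isSolvable SL(2, F) (Group.isSolvable_of_isSolvable_injective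
    (f := ψ.codRestrict (C1 (ψ (-1))) fun g => mem_centralizer_singleton_iff.2 (by
      rw [← map_mul, ← map_mul, mul_neg_one, neg_one_mul]))
    fun a b e => inj (congrArg Subtype.val e))

end Cfsg.Lib.L33A
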