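import Cfsg.Agent.L33A.PX
import Cfsg.Agent.Trans.SylowIn

/-! # The Sylow subgroup of `C_X(r₁, r₃)` -/

set_option autoImplicit false
set_option linter.unusedSectionVars false

namespace Cfsg.Lib.L33A

open Subgroup Cfsg.Lib.L33E Cfsg.Lib.Gold

universe u
variable {G : Type u} [Group G] [Finite G]

variable {X : Subgroup G} {t r1 r3 i1 j1 i2 j2 i3 j3 σ δ : G}

theorem DS.cm {w x r r' : G} (e : w⁻¹ * r * w = r') (c : Commute x r') : w * x * w⁻¹ ∈ C1 r := by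
  subst e
  refine mem_centralizer_singleton_iff.2 ?_
  calc w * x * w⁻¹ * r = w * (x * (w⁻¹ * r * w)) * w⁻¹ := by group
    _ = r * (w * x * w⁻¹) := by rw [c.eq]; group

theorem DS.max (A : Amb X t) (h : P6 X t r1 r3 i1 j1 i2 j2 i3 j3 σ δ) {U : Subgroup G}
    (hU : U ≤ X ⊓ C1 r3 ⊓ C1 r1) (p : IsPGroup 2 U) : Nat.card U ≤ 256 := by
  have s := h.sat
  have e1 : σ⁻¹ * r1 * σ = r1 * r3 := by
    rw [mul_assoc, inv_mul_eq_iff_eq_mul]
    simpa [evL] using (mulP s 1 256 257).trans (mulP s 256 3 257).symm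
  have e3 : σ⁻¹ * r3 * σ = r3 := by
    rw [mul_assoc, inv_mul_eq_iff_eq_mul]
    simpa [evL] using (mulP s 2 256 258).trans (mulP s 256 2 258).symm
  have e2 : σ ^ 2 = 1 := by rw [sq]; simpa [evL] using mulP s 256 256 0
  have n3 : r3 ≠ 1 := by simpa [evL] using neC s 2 0
  have σN : σ ∈ X ⊓ Ns (X ⊓ C1 r3 ⊓ C1 r1) := ⟨h.inX _ (by simp),
    Trans.mem_normalizer_of_cj_le (Trans.cj_le_iff.2 fun x hx => by
      have c3 : Commute x r3 := mem_centralizer_singleton_iff.1 hx.1.2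
      have c1 : Commute x r1 := mem_centralizer_singleton_iff.1 hx.2
      exact ⟨⟨A.nrm.conj_mem _ hx.1.1 _, DS.cm e3 c3⟩, DS.cm e1 (c1.mul_right c3)⟩)⟩
  obtain ⟨S, hS, le⟩ := Trans.exists_isSylowIn_ge p (hU.trans (le_inf
    (inf_le_left.trans inf_le_left) le_normalizer) : U ≤ X ⊓ Ns (X ⊓ C1 r3 ⊓ C1 r1))
  have pσ : IsPGroup 2 (zpowers σ) := by
    rintro ⟨_, n, rfl⟩
    exact ⟨1, Subtype.ext (show (σ ^ n) ^ 2 ^ 1 = 1 by
      rw [pow_one, ← zpow_natCast, ← zpow_mul, mul_comm, zpow_mul, zpow_natCast, e2, one_zpow])⟩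
  obtain ⟨g, hg, hc⟩ := hS.exists_cj_le pσ (zpowers_le.2 σN)
  have lt : Nat.card U < 2 ^ 9 := (Trans.card_lt_of_lt (lt_of_le_of_ne le fun e => by
    have k := (mem_normalizer_iff.1 hg.2 σ).2
      (hU (e ▸ Trans.cj_le_iff.1 hc σ (mem_zpowers σ)))
    have c : σ * r1 = r1 * σ := mem_centralizer_singleton_iff.1 k.2
    rw [mul_assoc, ← c, inv_mul_cancel_left, left_eq_mul] at e1
    exact n3 e1)).trans_le (PX.max A h (hS.le.trans inf_le_left) hS.isPGroup)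
  obtain ⟨k, hk⟩ := p.exists_card_eq
  rw [hk] at lt ⊢
  exact Nat.pow_le_pow_right (n := 2) two_pos
    (Nat.lt_succ_iff.1 ((Nat.pow_lt_pow_iff_right one_lt_two).1 lt) : k ≤ 8)

theorem DS.cod {gs : List G} (s : Sat DP6 gs) (xs L : List ℕ) {y : G}
    (hy : y ∈ gen (xs.map (evL gs)))
    (e : MP.sub xs (fun _ m => allN (fun x => !bit m x || memN x L) 1024) = true := by
      decide +kernel) : ∃ x ∈ L, x < 1024 ∧ evL gs x = y := by
  obtain ⟨-, l, m, p, q⟩ := (chP s).sub e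
  obtain ⟨x, hx, rfl⟩ := (chP s).mem_iff.1 (Xs.gen_le hy)
  have p := allN_iff.1 p x hx
  rw [(q x).2 ⟨hx, hy⟩] at p
  exact ⟨x, by simpa [memN_iff] using p, hx, rfl⟩

theorem DS.le (h : P6 X t r1 r3 i1 j1 i2 j2 i3 j3 σ δ) :
    gen [r1, r3, i1, j1, i2, j2, i3, j3] ≤ X ⊓ C1 r3 ⊓ C1 r1 ∧
    Nat.card (gen [r1, r3, i1, j1, i2, j2, i3, j3]) = 256 ∧
    gen [r1, r3, i1, j1, i2, j2, i3, j3] = gen [i1, j1] ⊔ gen [i2, j2] ⊔ gen [i3, j3] ∧
    gen [i1, j1] ⊓ gen [i2, j2] = ⊥ ∧ ∀ x ∈ gen [i1, j1], ∀ y ∈ gen [i2, j2], x * y = y * x := by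
  have s := h.sat
  have C := chP s
  have cm : ∀ x y, (Nat.blt x 1024 && Nat.blt y 1024 && MP.cm x y) = true →
      Commute (evL [r1, r3, i1, j1, i2, j2, i3, j3, σ, δ] x)
        (evL [r1, r3, i1, j1, i2, j2, i3, j3, σ, δ] y) := fun x y e => by
    simp only [Bool.and_eq_true, Nat.blt_eq] at e
    exact (C.cm_iff e.1.1 e.1.2).1 e.2
  refine ⟨(closure_le _).2 fun x hx => ?_, ?_, le_antisymm ((closure_le _).2 fun x hx => ?_)
    (sup_le (sup_le ?_ ?_) ?_), ?_, fun x hx y hy => ?_⟩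
  · obtain ⟨c, hc, e⟩ : ∃ c ∈ [1, 2, 4, 8, 16, 32, 64, 128],
        evL [r1, r3, i1, j1, i2, j2, i3, j3, σ, δ] c = x := by simpa [evL, eq_comm] using hx
    have k : ∀ c ∈ [1, 2, 4, 8, 16, 32, 64, 128], (Nat.blt c 1024 && Nat.blt 2 1024 &&
      MP.cm c 2) = true ∧ (Nat.blt c 1024 && Nat.blt 1 1024 && MP.cm c 1) = true := by
      decide +kernel
    have k3 := (cm _ _ (k c hc).1).eq
    have k1 := (cm _ _ (k c hc).2).eq
    rw [e] at k3 k1
    exact ⟨⟨h.inX _ (List.mem_append_left (bs := [σ]) hx),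
      mem_centralizer_singleton_iff.2 (by simpa [evL] using k3)⟩,
      mem_centralizer_singleton_iff.2 (by simpa [evL] using k1)⟩
  · obtain ⟨ks, g', e, h', -⟩ := Sat.snoc_invI (D := DT.dropLast)
      (β := [3, 2, 16, 32, 4, 8, 64, 128]) (sq := 0)
      (satT (gs := [r1, r3, i1, j1, i2, j2, i3, j3, σ]) s)
    rw [← (List.append_inj' (s₁ := [r1, r3, i1, j1, i2, j2, i3, j3]) e rfl).1] at h'
    rw [h'.cardI]; norm_num
  · have e1 : i1 * i1 = r1 := by simpa [evL] using mulP s 4 4 1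
    have e3 : i3 * i3 = r3 := by simpa [evL] using mulP s 64 64 2
    have m : ∀ a b : G, a ∈ gen [a, b] ∧ b ∈ gen [a, b] := fun a b =>
      ⟨subset_closure (by simp), subset_closure (by simp)⟩
    simp only [Set.mem_ofPred_eq, List.mem_cons, List.not_mem_nil, or_false] at hx
    rcases hx with rfl | rfl | rfl | rfl | rfl | rfl | rfl | rfl
    · exact mem_sup_left (mem_sup_left (e1 ▸ mul_mem (m _ _).1 (m _ _).1))
    · exact mem_sup_right (e3 ▸ mul_mem (m _ _).1 (m _ _).1)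
    · exact mem_sup_left (mem_sup_left (m _ _).1)
    · exact mem_sup_left (mem_sup_left (m _ _).2)
    · exact mem_sup_left (mem_sup_right (m _ _).1)
    · exact mem_sup_left (mem_sup_right (m _ _).2)
    · exact mem_sup_right (m _ _).1
    · exact mem_sup_right (m _ _).2
  · exact closure_mono fun x hx => by simp at hx ⊢; tauto
  · exact closure_mono fun x hx => by simp at hx ⊢; tauto
  · exact closure_mono fun x hx => by simp at hx ⊢; tauto
  · refine eq_bot_iff.2 fun y hy => ?_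
    obtain ⟨a, ha, la, rfl⟩ := DS.cod s [1, 4, 8] [0, 1, 4, 5, 8, 9, 12, 13]
      (closure_mono (fun x hx => by simp [evL] at hx ⊢; tauto) hy.1)
    obtain ⟨b, hb, lb, e⟩ := DS.cod s [3, 16, 32] [0, 3, 16, 19, 32, 35, 48, 51]
      (closure_mono (fun x hx => by simp [evL] at hx ⊢; tauto) hy.2)
    have := C.inj _ _ lb la e
    subst this
    have : b = 0 := by simp at ha hb; omega
    subst this
    exact mem_bot.2 (evL_zero _)
  · refine (Xs.comm_gen (fun a ha => (Xs.comm_gen (fun b hb => ?_) hy).symm) hx).eq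
    simp only [List.mem_cons, List.not_mem_nil, or_false] at ha hb
    rcases ha with rfl | rfl <;> rcases hb with rfl | rfl
    · simpa [evL] using cm 16 4 (by decide +kernel)
    · simpa [evL] using cm 32 4 (by decide +kernel)
    · simpa [evL] using cm 16 8 (by decide +kernel)
    · simpa [evL] using cm 32 8 (by decide +kernel)

theorem DS.sc0 (h : P6 X t r1 r3 i1 j1 i2 j2 i3 j3 σ δ) {w r i j g x : G} (e : w⁻¹ * r3 * w = r)
    (hw : Cj w [i3, j3] [i, j]) (hg : Commute g r)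
    (hy : w * (g * x * g⁻¹) * w⁻¹ ∈ gen [r1, r3, i1, j1, i2, j2, i3, j3]) (hx : x ∈ gen [i, j]) :
    g * x * g⁻¹ ∈ gen [i, j] := by
  have back : w * (g * x * g⁻¹) * w⁻¹ ∈ gen [i3, j3] → g * x * g⁻¹ ∈ gen [i, j] := fun k => by
    simpa [mul_assoc] using Der.cj_gen hw k
  have h3 := Der.cj_gen (Der.cj_symm hw) hx
  rw [inv_inv] at h3
  have er : ∀ y, w * y * w⁻¹ = r3 ↔ y = r := fun y =>
    ⟨fun k => by rw [← e, ← k]; group, fun k => by rw [k, ← e]; group⟩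
  rcases PX.q3 h h3 with k | k | ⟨k, c⟩
  · rw [conj_eq_one_iff.1 k, mul_one, mul_inv_cancel]; exact one_mem _
  · rwa [(er x).1 k, hg.eq, mul_inv_cancel_right, ← (er x).1 k]
  · rw [conj_mul, er] at k
    refine back (h.scl _ (closure_mono (fun x hx => by simp at hx ⊢; tauto) hy) ?_
      (c.trans (isConj_iff.2 ⟨w * g * w⁻¹, by group⟩)))
    rw [conj_mul, conj_mul, k, hg.eq, mul_inv_cancel_right, er]

theorem DS.sc (A : Amb X t) (h : P6 X t r1 r3 i1 j1 i2 j2 i3 j3 σ δ) {g : G}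
    (hg : g ∈ X ⊓ C1 r3 ⊓ C1 r1) {x : G} (hx : g * x * g⁻¹ ∈ gen [r1, r3, i1, j1, i2, j2, i3, j3]) :
    (x ∈ gen [i1, j1] → g * x * g⁻¹ ∈ gen [i1, j1]) ∧
    (x ∈ gen [i2, j2] → g * x * g⁻¹ ∈ gen [i2, j2]) := by
  obtain ⟨w, -, hw⟩ := PX.wey A h
  simp only [Cj, List.forall₂_cons, List.Forall₂.nil, and_true] at hw
  obtain ⟨b1, b3, a1, a2, a3, a4, a5, a6, -⟩ := hw
  have c3 : Commute g r3 := mem_centralizer_singleton_iff.1 hg.1.2
  have c1 : Commute g r1 := mem_centralizer_singleton_iff.1 hg.2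
  have n : ∀ y ∈ gen [r1, r3, i1, j1, i2, j2, i3, j3],
      w * y * w⁻¹ ∈ gen [r1, r3, i1, j1, i2, j2, i3, j3] := fun y hy => by
    have k : Cj w [i1, j1, i2, j2, i3, j3] [i2, j2, i3, j3, i1, j1] := by
      simp only [Cj, List.forall₂_cons, List.Forall₂.nil, and_true]
      exact ⟨a1, a2, a3, a4, a5, a6⟩
    rw [(DS.le h).2.2.1] at hy
    have := Der.cj_gen (Der.cj_symm k) ((sup_le (sup_le ?_ ?_) ?_ : _ ≤ gen _) hy)
    · rw [inv_inv] at this
      exact closure_mono (fun x hx => by simp at hx ⊢; tauto) this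
    all_goals exact closure_mono fun x hx => by simp at hx ⊢; tauto
  have k1 : Cj w [i3, j3] [i1, j1] := by
    simp only [Cj, List.forall₂_cons, List.Forall₂.nil, and_true]; exact ⟨a5, a6⟩
  have k2 : Cj w [i1, j1] [i2, j2] := by
    simp only [Cj, List.forall₂_cons, List.Forall₂.nil, and_true]; exact ⟨a1, a2⟩
  refine ⟨DS.sc0 h b3 k1 c1 (n _ hx), DS.sc0 h (w := w * w) (r := r1 * r3) ?_
    (Der.cj_trans k1 k2) (c1.mul_right c3) ?_⟩
  · rw [← b1, ← b3]; group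
  · simpa [mul_assoc] using n _ (n _ hx)

end Cfsg.Lib.L33A
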