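import Cfsg.Agent.L33A.Kit
import Cfsg.Agent.L33A.Defs
import Cfsg.Agent.Solv.Cores
import Cfsg.Agent.S0270

/-! # The perfect normal subgroup covering `P` -/

set_option autoImplicit false

namespace Cfsg.Lib.L33A

open Subgroup Cfsg.Lib.L33E Cfsg.Lib.Gold
open scoped commutatorElement

universe u
variable {G : Type u} [Group G] [Finite G]
variable {r1 r3 i1 j1 i2 j2 i3 j3 σ : G} {B : Type u} [Group B] {π : G →* B}

theorem EE.odd {o : G} (ho : o ∈ Cfsg.oddCore G) {N : Subgroup G} (h : o ^ 4 ∈ N) : o ∈ N := by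
  have h1 : (orderOf o).Coprime 2 :=
    Nat.Coprime.coprime_dvd_left (orderOf_dvd_natCard _ ho) (Solv.coprime_card_pPrimeCore 2 G)
  obtain ⟨m, e⟩ := exists_pow_eq_self_of_coprime (x := o) (n := 2 ^ 2) (h1.symm.pow_left 2)
  exact e ▸ pow_mem h m

theorem EE.ex (h : HC r1 r3 i1 j1 i2 j2 i3 j3 σ) (hπ : Function.Surjective π)
    (hk : π.ker = zpowers r3 ⊔ Cfsg.oddCore G) {P : Subgroup B}
    (b : BO P (π r1) (π i1) (π j1) (π i2) (π j2) (π σ))
    (hO : ∀ y ∈ Cfsg.oddCore G, Commute y r1) : ∃ E : Subgroup G, E.Normal ∧ ⁅E, E⁆ = E ∧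
      E.map π = P ∧ Cfsg.oddCore G ≤ Cs E ∧ r1 ∈ E ∧ r3 ∈ E := by
  have := b.nrm
  obtain ⟨φ⟩ := b.iso
  have := Cfsg.Agent.S0270.result (F := ZMod 3) 2 le_rfl (fun _ => by simp)
  have : IsSimpleGroup P := φ.isSimpleGroup
  have s11 : r1 * r1 = 1 := by simpa [evL] using mulT h.sat 1 1 0
  have s33 : r3 * r3 = 1 := by simpa [evL] using mulT h.sat 2 2 0
  have s13 : r1 * r3 * (r1 * r3) = 1 := by simpa [evL] using mulT h.sat 3 3 0
  have a1 : i1 * i1 = r1 := by simpa [evL] using mulT h.sat 4 4 1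
  have a2 : j1 * j1 = r1 := by simpa [evL] using mulT h.sat 8 8 1
  have a3 : i2 * i2 = r1 * r3 := by simpa [evL] using mulT h.sat 16 16 3
  have a4 : j2 * j2 = r1 * r3 := by simpa [evL] using mulT h.sat 32 32 3
  have c1 : ⁅j1, i1⁆ = r1 := by
    have : j1 * i1 = r1 * (i1 * j1) := by simpa [evL] using mulT h.sat 8 4 13
    rw [commutatorElement_def, this]; group
  have c2 : ⁅j2, i2⁆ = r1 * r3 := by
    have : j2 * i2 = r1 * (r3 * (i2 * j2)) := by simpa [evL] using mulT h.sat 32 16 51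
    rw [commutatorElement_def, this]; group
  have n1 : r1 ≠ 1 := by simpa [evL] using neC h.sat 1 0
  have n3 : r1 ≠ r3 := by simpa [evL] using neC h.sat 1 2
  have kr : ∀ k, π k = 1 → ∃ z ∈ center G, z * z = 1 ∧ (z = 1 ∨ z = r3) ∧
      ∃ o ∈ Cfsg.oddCore G, k = z * o := fun k e => by
    obtain ⟨z, hz, o, ho, rfl⟩ := mem_sup_of_normal_right.1 (hk.le (MonoidHom.mem_ker.2 e))
    have : z = 1 ∨ z = r3 := by
      obtain ⟨i, rfl⟩ := hz
      have h2 : r3 ^ (2 : ℤ) = 1 := by rw [zpow_two, s33]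
      rcases Int.even_or_odd' i with ⟨j, rfl | rfl⟩
      · exact .inl (by simp only [zpow_mul, h2, one_zpow])
      · exact .inr (by simp only [zpow_add, zpow_mul, h2, one_zpow, one_mul, zpow_one])
    exact ⟨z, zpowers_le.2 h.cen hz, by rcases this with rfl | rfl; exacts [one_mul _, s33], this,
      o, ho, rfl⟩
  have kc : ∀ k, π k = 1 → ∀ y ∈ Cs (Cfsg.oddCore G), Commute k y := fun k e y hy => by
    obtain ⟨z, hz, -, -, o, ho, rfl⟩ := kr k e
    exact Commute.mul_left (mem_center_iff.1 hz y).symm (mem_centralizer_iff.1 hy o ho)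
  have p1 : π r1 ≠ 1 := fun e => by
    obtain ⟨z, hz, z2, h1, o, ho, e⟩ := kr r1 e
    have h2 : o = z * r1 := by rw [e, ← mul_assoc, z2, one_mul]
    have h3 : o * o = 1 := by
      rw [h2, ← sq, (show Commute z r1 from (mem_center_iff.1 hz r1).symm).mul_pow, sq, sq, z2, s11,
        one_mul]
    have h4 : o = 1 := mem_bot.1 (EE.odd ho (by
      rw [show 4 = 2 + 2 from rfl, pow_add, pow_two, h3, one_mul]; exact one_mem _))
    rw [h4, mul_one] at e
    rcases h1 with rfl | rfl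
    exacts [n1 e, n3 e]
  have mP : ∀ x ∈ [π r1, π i1, π j1, π i2, π j2, π σ], x ∈ P := fun x hx => b.le (subset_closure hx)
  have le : ∀ K : Subgroup B, K.Normal → π r1 ∈ K → P ≤ K := fun K hK hr =>
    subgroupOf_eq_top.1 (((hK.subgroupOf P).eq_bot_or_eq_top).resolve_left fun e => by
      have : (⟨π r1, mP _ (by simp)⟩ : P) ∈ K.subgroupOf P := hr
      rw [e, mem_bot] at this
      exact p1 (congrArg Subtype.val this))
  have r1N : r1 ∈ Cs (Cfsg.oddCore G) := mem_centralizer_iff.2 hO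
  have l1 := le _ ((inferInstance : (Cs (Cfsg.oddCore G)).Normal).map π hπ) (mem_map_of_mem π r1N)
  have l2 := le ⁅P, P⁆ inferInstance (by
    rw [← c1, map_commutatorElement]
    exact commutator_mem_commutator (mP _ (by simp)) (mP _ (by simp)))
  obtain ⟨Y, hY⟩ : ∃ Y, Y = Cs (Cfsg.oddCore G) ⊓ P.comap π := ⟨_, rfl⟩
  have : Y.Normal := hY ▸ inferInstance
  have YN : Y ≤ Cs (Cfsg.oddCore G) := hY ▸ inf_le_left
  have Ym : Y.map π = P := le_antisymm (map_le_iff_le_comap.2 (hY ▸ inf_le_right)) fun p hp => by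
    obtain ⟨n, hn, rfl⟩ := l1 hp
    exact mem_map_of_mem π (hY ▸ mem_inf.2 ⟨hn, hp⟩)
  have Em : ⁅Y, Y⁆.map π = P := by
    rw [map_commutator, Ym]; exact le_antisymm (commutator_le_left _ _) l2
  have EY : ⁅Y, Y⁆ ≤ Y := commutator_le_left _ _
  have mY : ∀ w, π w ∈ P → w * w * (w * w) = 1 → w ∈ Y := fun w hw w4 => by
    obtain ⟨n, hn, e⟩ := l1 hw
    obtain ⟨z, hz, -, -, o, ho, e'⟩ := kr (n⁻¹ * w) (by rw [map_mul, map_inv, e, inv_mul_cancel])
    have h1 : n * z ∈ Cs (Cfsg.oddCore G) := mul_mem hn (center_le_centralizer _ hz)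
    have h2 : w = n * z * o := by rw [mul_assoc, ← e', mul_inv_cancel_left]
    have h3 : (n * z) ^ 4 * o ^ 4 = 1 := by
      rw [← (show Commute (n * z) o from (mem_centralizer_iff.1 h1 o ho).symm).mul_pow, ← h2,
        show 4 = 2 + 2 from rfl, pow_add, pow_two, w4]
    have h4 := EE.odd ho (eq_inv_of_mul_eq_one_right h3 ▸ inv_mem (pow_mem h1 4))
    exact hY ▸ mem_inf.2 ⟨h2 ▸ mul_mem h1 h4, hw⟩
  have e1 : r1 ∈ ⁅Y, Y⁆ := c1 ▸ commutator_mem_commutator (mY _ (mP _ (by simp)) (by rw [a2, s11]))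
    (mY _ (mP _ (by simp)) (by rw [a1, s11]))
  have e2 : r1 * r3 ∈ ⁅Y, Y⁆ := c2 ▸ commutator_mem_commutator
    (mY _ (mP _ (by simp)) (by rw [a4, s13])) (mY _ (mP _ (by simp)) (by rw [a3, s13]))
  have dec : ∀ a ∈ Y, ∃ e ∈ ⁅Y, Y⁆, ∃ z, a = e * z ∧ ∀ y ∈ Y, Commute z y := fun a ha => by
    obtain ⟨e, he, k⟩ := (Em.trans Ym.symm).ge (mem_map_of_mem π ha)
    exact ⟨e, he, e⁻¹ * a, by group, fun y hy =>
      kc _ (by rw [map_mul, map_inv, k, inv_mul_cancel]) y (YN hy)⟩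
  refine ⟨⁅Y, Y⁆, inferInstance, le_antisymm (commutator_le_left _ _) (commutator_le.2
    fun a ha c hc => ?_), Em, le_centralizer_iff.1 (EY.trans YN), e1, (mul_mem_cancel_left e1).1 e2⟩
  obtain ⟨e, he, z, rfl, hz⟩ := dec a ha
  have k1 : ⁅e * z, c⁆ = ⁅e, c⁆ := by
    rw [commutatorElement_def, commutatorElement_def, mul_assoc e, (hz c hc).eq]; group
  obtain ⟨e', he', z', rfl, hz'⟩ := dec c hc
  have k2 : ⁅e, e' * z'⁆ = ⁅e, e'⁆ := by
    rw [commutatorElement_def, commutatorElement_def, ← mul_assoc e, mul_assoc _ z',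
      (hz' _ (inv_mem (EY he))).eq]; group
  rw [k1, k2]
  exact commutator_mem_commutator he he'

end Cfsg.Lib.L33A
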