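import Cfsg.Agent.L33A.Kit

/-! # The fusing elements can be taken in `X` -/

set_option autoImplicit false
set_option linter.unusedSectionVars false

namespace Cfsg.Lib.L33A

open Subgroup Cfsg.Lib.L33E Cfsg.Lib.Gold

universe u
variable {G : Type u} [Group G] [Finite G]

variable {X : Subgroup G} {t r1 r3 i1 j1 i2 j2 i3 j3 σ δ : G}

omit [Finite G] in
theorem PX.cm (g a b : G) : g⁻¹ * (a * b) * g = g⁻¹ * a * g * (g⁻¹ * b * g) := by group

omit [Finite G] in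
theorem PX.four (A : Amb X t) {g : G} {xs ys zs : List G} (a : Cj g xs ys) (b : Cj g ys zs)
    (c : Cj g zs xs) : ∃ g ∈ X, Cj g xs ys :=
  ⟨g * g * (g * g), mul_mem ((Xs.mul_iff A g g).2 Iff.rfl) ((Xs.mul_iff A g g).2 Iff.rfl),
    Der.cj_trans (Der.cj_trans a b) (Der.cj_trans c a)⟩

omit [Finite G] in
theorem PX.ic {c a b : G} (h : c * a = b * c) : IsConj a b :=
  isConj_iff.2 ⟨c, by rw [h]; group⟩

theorem PX.rho (A : Amb X t) (h : P6 X t r1 r3 i1 j1 i2 j2 i3 j3 σ δ) : ∃ g ∈ X,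
    Cj g [i1, j1, i2, j2, σ, i3, j3] [i1, j1, i2, j2, σ, j3, i3 * j3] := by
  obtain ⟨g, hg⟩ := h.rho
  have e : j3 * (i3 * j3) = i3 := by simpa [evL] using mulP h.sat 128 192 64
  have hg' := hg
  simp only [Cj, List.forall₂_cons, List.Forall₂.nil, and_true] at hg'
  obtain ⟨a1, a2, a3, a4, a5, a6, a7⟩ := hg'
  have a8 : g⁻¹ * (i3 * j3) * g = i3 := by rw [PX.cm, a6, a7, e]
  refine PX.four A hg (zs := [i1, j1, i2, j2, σ, i3 * j3, i3]) ?_ ?_ <;>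
    simp only [Cj, List.forall₂_cons, List.Forall₂.nil, and_true]
  · exact ⟨a1, a2, a3, a4, a5, a7, a8⟩
  · exact ⟨a1, a2, a3, a4, a5, a8, a6⟩

theorem PX.wey (A : Amb X t) (h : P6 X t r1 r3 i1 j1 i2 j2 i3 j3 σ δ) : ∃ g ∈ X,
    Cj g [r1, r3, i1, j1, i2, j2, i3, j3, δ] [r1 * r3, r1, i2, j2, i3, j3, i1, j1, δ] := by
  obtain ⟨g, hg⟩ := h.wey
  have e1 : i1 * i1 = r1 := by simpa [evL] using mulP h.sat 4 4 1
  have e2 : i2 * i2 = r1 * r3 := by simpa [evL] using mulP h.sat 16 16 3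
  have e3 : i3 * i3 = r3 := by simpa [evL] using mulP h.sat 64 64 2
  simp only [Cj, List.forall₂_cons, List.Forall₂.nil, and_true] at hg
  obtain ⟨a1, a2, a3, a4, a5, a6, a7⟩ := hg
  have b1 : g⁻¹ * r1 * g = r1 * r3 := by rw [← e2, ← e1, PX.cm, a1]
  have b2 : g⁻¹ * (r1 * r3) * g = r3 := by rw [← e2, PX.cm, a3, e3]
  have b3 : g⁻¹ * r3 * g = r1 := by rw [← e3, PX.cm, a5, e1]
  refine PX.four A (g := g) (zs := [r3, r1 * r3, i3, j3, i1, j1, i2, j2, δ]) ?_ ?_ ?_ <;>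
    simp only [Cj, List.forall₂_cons, List.Forall₂.nil, and_true]
  · exact ⟨b1, b3, a1, a2, a3, a4, a5, a6, a7⟩
  · exact ⟨b2, b1, a3, a4, a5, a6, a1, a2, a7⟩
  · exact ⟨b3, b2, a5, a6, a1, a2, a3, a4, a7⟩

theorem PX.rho1 (A : Amb X t) (h : P6 X t r1 r3 i1 j1 i2 j2 i3 j3 σ δ) : ∃ g ∈ X,
    Cj g [i1, j1, i2, j2, i3, j3] [j1, i1 * j1, i2, j2, i3, j3] := by
  obtain ⟨w, wX, hw⟩ := PX.wey A h
  obtain ⟨ρ, ρX, hρ⟩ := PX.rho A h
  simp only [Cj, List.forall₂_cons, List.Forall₂.nil, and_true] at hw hρ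
  obtain ⟨-, -, a1, a2, a3, a4, a5, a6, -⟩ := hw
  obtain ⟨b1, b2, b3, b4, -, b5, b6⟩ := hρ
  refine ⟨w⁻¹ * ρ * w, mul_mem (mul_mem (inv_mem wX) ρX) wX,
    Der.cj_trans (ys := [j3, i3 * j3, i1, j1, i2, j2])
      (Der.cj_trans (ys := [i3, j3, i1, j1, i2, j2]) (Der.cj_symm ?_) ?_) ?_⟩ <;>
    simp only [Cj, List.forall₂_cons, List.Forall₂.nil, and_true]
  · exact ⟨a5, a6, a1, a2, a3, a4⟩
  · exact ⟨b5, b6, b1, b2, b3, b4⟩
  · exact ⟨a6, by rw [PX.cm, a5, a6], a1, a2, a3, a4⟩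

theorem PX.ef (A : Amb X t) (h : P6 X t r1 r3 i1 j1 i2 j2 i3 j3 σ δ) : ∃ g ∈ X,
    Cj g [r1, i3, j3] [σ, i3, j3] := by
  obtain ⟨g, hg⟩ := h.efv
  have e1 : σ * (i1 * i2) = i1 * (i2 * σ) := by simpa [evL] using mulP h.sat 256 20 276
  have e2 : i1 * (i2 * σ) * (r1 * (i1 * (i2 * σ))) = r1 := by
    simpa [evL] using mulP h.sat 276 277 1
  simp only [Cj, List.forall₂_cons, List.Forall₂.nil, and_true] at hg
  obtain ⟨a1, a2, -, a4, a5, a6⟩ := hg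
  have b : g⁻¹ * (r1 * (i1 * i2) * σ) * g = r1 := by
    rw [PX.cm, PX.cm, a1, a2, a4, e1, mul_assoc r1, mul_assoc i1 i2, e2]
  refine PX.four A (g := g) (zs := [r1 * (i1 * i2) * σ, i3, j3]) ?_ ?_ ?_ <;>
    simp only [Cj, List.forall₂_cons, List.Forall₂.nil, and_true]
  · exact ⟨a1, a5, a6⟩
  · exact ⟨a4, a5, a6⟩
  · exact ⟨b, a5, a6⟩

/-- every 2-subgroup of `X` has order at most `512` -/
theorem PX.max (A : Amb X t) (h : P6 X t r1 r3 i1 j1 i2 j2 i3 j3 σ δ) {U : Subgroup G} (hU : U ≤ X)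
    (p : IsPGroup 2 U) : Nat.card U ≤ 512 := by
  obtain ⟨T, hT⟩ := h.syl
  obtain ⟨S, hS⟩ := p.exists_le_sylow
  obtain ⟨g, rfl⟩ := MulAction.exists_smul_eq G T S
  have cT : Nat.card (T : Subgroup G) = 2 ^ 10 := by rw [hT]; exact h.sat.cardI
  have cS : Nat.card ((g • T : Sylow 2 G) : Subgroup G) = 2 ^ 10 := by
    rw [← cT]; exact Nat.card_congr (Sylow.equiv _ _).toEquiv
  have dT : δ ∈ (T : Subgroup G) := by rw [hT]; exact subset_closure (by simp)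
  have dS : g * δ * g⁻¹ ∈ ((g • T : Sylow 2 G) : Subgroup G) := by
    rw [Sylow.coe_subgroup_smul]
    exact ⟨δ, dT, rfl⟩
  have dU : g * δ * g⁻¹ ∉ U := fun k => h.dX ((Xs.conj_iff A g⁻¹ δ).1 (by simpa using hU k))
  have lt : Nat.card U < 2 ^ 10 := by
    rw [← cS]
    refine lt_of_le_of_ne (card_le_of_le hS) fun e => dU ?_
    rwa [eq_of_le_of_card_ge hS e.ge]
  obtain ⟨k, hk⟩ := p.exists_card_eq
  rw [hk] at lt ⊢
  exact Nat.pow_le_pow_right (n := 2) two_pos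
    (Nat.lt_succ_iff.1 ((Nat.pow_lt_pow_iff_right one_lt_two).1 lt) : k ≤ 9)

theorem PX.q3 (h : P6 X t r1 r3 i1 j1 i2 j2 i3 j3 σ δ) {y : G} (hy : y ∈ gen [i3, j3]) :
    y = 1 ∨ y = r3 ∨ (y * y = r3 ∧ IsConj (i3 * j3) y) := by
  have s := h.sat
  have C := chP s
  obtain ⟨-, l, m, p, q⟩ := C.sub (xs := [2, 64, 128]) (k := fun _ m => allN (fun x =>
    !bit m x || memN x [0, 2, 64, 66, 128, 130, 192, 194]) 1024) (by decide +kernel)
  have hy1 : y ∈ gen [r1, r3, i1, j1, i2, j2, i3, j3, σ, δ] :=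
    closure_mono (fun x hx => by simp at hx ⊢; tauto) hy
  obtain ⟨x, hx, rfl⟩ := C.mem_iff.1 hy1
  have p := allN_iff.1 p x hx
  rw [(q x).2 ⟨hx, closure_mono (fun x hx => by simp [evL] at hx ⊢; tauto) hy⟩] at p
  simp only [Bool.not_true, Bool.false_or, memN_iff, List.mem_cons, List.not_mem_nil,
    or_false] at p
  obtain ⟨g, hg⟩ := h.rho
  simp only [Cj, List.forall₂_cons, List.Forall₂.nil, and_true] at hg
  obtain ⟨-, -, -, -, -, a6, a7⟩ := hg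
  have e2 : evL [r1, r3, i1, j1, i2, j2, i3, j3, σ, δ] 2 = r3 := by simp [evL]
  have c3 : IsConj (i3 * j3) (evL [r1, r3, i1, j1, i2, j2, i3, j3, σ, δ] 192) := by
    simp only [evL]
    norm_num
    exact ⟨1, by group⟩
  have c2 : IsConj (i3 * j3) (evL [r1, r3, i1, j1, i2, j2, i3, j3, σ, δ] 128) := by
    simp only [evL]
    norm_num
    exact ⟨g, by rw [← a7]; group⟩
  have c1 : IsConj (i3 * j3) (evL [r1, r3, i1, j1, i2, j2, i3, j3, σ, δ] 64) := by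
    refine c2.trans ?_
    simp only [evL]
    norm_num
    exact ⟨g, by rw [← a6]; group⟩
  rcases p with rfl | rfl | rfl | rfl | rfl | rfl | rfl | rfl
  · left; exact evL_zero _
  · right; left; exact e2
  · exact .inr (.inr ⟨(mulP s 64 64 2).trans e2, c1⟩)
  · exact .inr (.inr ⟨(mulP s 66 66 2).trans e2,
      c1.trans (PX.ic ((mulP s 128 64 194).trans (mulP s 66 128 194).symm))⟩)
  · exact .inr (.inr ⟨(mulP s 128 128 2).trans e2, c2⟩)
  · exact .inr (.inr ⟨(mulP s 130 130 2).trans e2,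
      c2.trans (PX.ic ((mulP s 64 128 192).trans (mulP s 130 64 192).symm))⟩)
  · exact .inr (.inr ⟨(mulP s 192 192 2).trans e2, c3⟩)
  · exact .inr (.inr ⟨(mulP s 194 194 2).trans e2,
      c3.trans (PX.ic ((mulP s 64 192 130).trans (mulP s 194 64 130).symm))⟩)

end Cfsg.Lib.L33A
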